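import Cfsg.Agent.H732.OZ.LCon
import Cfsg.Agent.H115.PelQuot
import Cfsg.Agent.Nodes.RGDClass
import Cfsg.Agent.LieClassical.SLGen
import Cfsg.Agent.LieClassical.FieldTransfer
import Cfsg.Agent.H730.OZ.Asm

/-!
# S4842: the rows `PSL_6(2)` and `PSL_7(2)` (helper732)
-/

set_option autoImplicit false

namespace Cfsg.Agent.H732.OZ

open Cfsg Cfsg.Agent.Characters Cfsg.Agent.H686.CharKit Cfsg.Agent.H732.VZ Cfsg.Agent.H732.Bit
open Cfsg.Agent.H730.OZ
open Matrix

theorem units_two (a : (ZMod 2)ˣ) : a = 1 := by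
  revert a
  decide

noncomputable def slGL (n : ℕ) : Matrix.SpecialLinearGroup (Fin n) (ZMod 2) ≃* GL (Fin n) (ZMod 2) :=
  MulEquiv.ofBijective Matrix.SpecialLinearGroup.toGL ⟨fun a b h => by
    apply Subtype.ext
    exact congrArg (fun x : GL (Fin n) (ZMod 2) => (x : Matrix (Fin n) (Fin n) (ZMod 2))) h, fun g => by
    have h1 : (g : Matrix (Fin n) (Fin n) (ZMod 2)).det = 1 := by
      have h2 := units_two (Matrix.GeneralLinearGroup.det g)
      exact congrArg Units.val h2
    exact ⟨⟨g, h1⟩, Units.ext rfl⟩⟩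

theorem center_sl (n : ℕ) (hn : 0 < n) :
    Subgroup.center (Matrix.SpecialLinearGroup (Fin n) (ZMod 2)) = ⊥ := by
  rw [Subgroup.eq_bot_iff_forall]
  intro A hA
  obtain ⟨r, hr, hA⟩ := Matrix.SpecialLinearGroup.mem_center_iff.1 hA
  have hr1 : r = 1 := by
    have h1 : r ≠ 0 := by
      rintro rfl
      rw [Fintype.card_fin, zero_pow hn.ne'] at hr
      exact absurd hr (by decide)
    have h2 : ∀ r : ZMod 2, r ≠ 0 → r = 1 := by decide
    exact h2 r h1
  apply Subtype.ext
  rw [← hA, hr1]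
  simp

noncomputable def pslGL (n : ℕ) (hn : 0 < n) :
    Matrix.ProjectiveSpecialLinearGroup (Fin n) (ZMod 2) ≃* GL (Fin n) (ZMod 2) :=
  ((QuotientGroup.quotientMulEquivOfEq (center_sl n hn)).trans QuotientGroup.quotientBot).trans (slGL n)

theorem pSet_congr {G H : Type*} [Group G] [Group H] (e : G ≃* H) (p : ℕ) :
    (pSet p G).ncard = (pSet p H).ncard := by
  have h : e '' pSet p G = pSet p H := by
    ext y
    constructor
    · rintro ⟨x, ⟨k, hk⟩, rfl⟩
      exact ⟨k, by rw [← hk]; exact e.orderOf_eq x⟩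
    · rintro ⟨k, hk⟩
      exact ⟨e.symm y, ⟨k, by rw [← hk]; exact e.symm.orderOf_eq y⟩, e.apply_symm_apply y⟩
  rw [← h, Set.ncard_image_of_injective _ e.injective]

theorem ncard_gl (n : ℕ) {a m : ℕ} (hc : Nat.card (GL (Fin (n + 1)) (ZMod 2)) = 2 ^ a * m)
    (hm : ¬ 2 ∣ m) : (pSet 2 (GL (Fin (n + 1)) (ZMod 2))).ncard = (2 ^ a) ^ 2 := by
  have : Fact (Nat.Prime 2) := ⟨Nat.prime_two⟩
  have e := pslGL (n + 1) (Nat.succ_pos n)
  have : Finite (Matrix.ProjectiveSpecialLinearGroup (Fin (n + 1)) (ZMod 2)) :=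
    Finite.of_equiv _ e.symm.toEquiv
  have hR := Cfsg.Agent.Nodes.RGDClass.hasRGD_PSL (F := ZMod 2) (p := 2) n
  have h1 := Cfsg.Agent.H115.card_pel_of_hasRGD' hR (a := a) (m := m)
    (by rw [Nat.card_congr e.toEquiv, hc]) hm
  rw [← pSet_congr e, ← h1]
  exact (Nat.card_coe_set_eq _).symm

theorem simple_gl (n : ℕ) (hn : 3 ≤ n) : IsSimpleGroup (GL (Fin n) (ZMod 2)) :=
  (pslGL n (by omega)).isSimpleGroup_congr.1
    (Cfsg.Agent.LieClassical.SLGen.psl_isSimpleGroup (by simpa using hn))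

theorem not_comm_of {G : Type*} [Group G] {a b : G} (h : IsConj a b) (hne : a ≠ b) :
    ¬ IsMulCommutative G := by
  intro hc
  obtain ⟨c, hc'⟩ := isConj_iff.1 h
  apply hne
  rw [← hc', hc.is_comm.comm c a, mul_inv_cancel_right]

theorem five_ne {G : Type*} [Group G] [Fintype G] {χ : IrrCharacter G} {x : G} (h : One χ x)
    {m : ℕ} (hG : Nat.card G = 5 * m) (hm : ¬ 5 ∣ m) {y : G} (hy : orderOf y = 15) :
    Nat.card (Subgroup.centralizer ({x} : Set G)) ≠ 5 := by
  intro hc
  have h1 : orderOf x ∣ 5 := hc ▸ orderOf_dvd_centralizer (Commute.refl x)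
  have h3 : orderOf x = 5 := by
    rcases (Nat.dvd_prime (by norm_num)).1 h1 with h4 | h4
    · exact absurd (orderOf_eq_one_iff.1 h4) h.ne_one
    · exact h4
  have hy3 : orderOf (y ^ 3) = 5 := by
    rw [orderOf_pow' y (by norm_num), hy]
    norm_num
  have h4 := card_centralizer_of_prime (by norm_num) hG hm h3 hy3
  have h5 : 15 ∣ Nat.card (Subgroup.centralizer ({y ^ 3} : Set G)) := by
    rw [← hy]
    exact orderOf_dvd_centralizer ((Commute.refl y).pow_right 3)
  rw [← h4, hc] at h5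
  omega

theorem gl6_card : Nat.card (GL (Fin 6) (ZMod 2)) = 20158709760 := by
  rw [Matrix.card_GL_field]
  simp [Fin.prod_univ_succ, ZMod.card]

theorem gl7_card : Nat.card (GL (Fin 7) (ZMod 2)) = 163849992929280 := by
  rw [Matrix.card_GL_field]
  simp [Fin.prod_univ_succ, ZMod.card]

theorem none_gl6 {χ : GL (Fin 6) (ZMod 2) → ℂ} (hχ : IsIrrCharacter _ χ) : ¬ OneZero χ := by
  classical
  intro h0
  have : Fintype (GL (Fin 6) (ZMod 2)) := Fintype.ofFinite _
  have := simple_gl 6 (by norm_num)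
  obtain ⟨x, h⟩ := (oneZero_iff hχ).1 h0
  have hna : ¬ IsMulCommutative (GL (Fin 6) (ZMod 2)) := by
    obtain hr := L6.g9_rat 
    have h1 : IsConj L6.g9 (L6.g9 ^ 2) := isConj_gl_pow L6.e _ (p := [57, 33, 2, 8, 32, 6])
      (p' := [18, 4, 36, 8, 11, 16]) (by decide) (by decide)
    refine not_comm_of h1 fun h2 => ?_
    have h3 : L6.g9 = 1 := by
      rw [pow_two] at h2
      exact mul_left_cancel (h2.symm.trans (mul_one _).symm)
    have h4 := L6.g9_ord
    rw [h3, orderOf_one] at h4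
    omega
  have hpf : ∀ p ∈ (20158709760 : ℕ).primeFactors,
      p = 2 ∨ p = 3 ∨ p = 5 ∨ p = 7 ∨ p = 31 ∨ p = 127 := by
    intro p hp
    have hp' := Nat.prime_of_mem_primeFactors hp
    have hd := Nat.dvd_of_mem_primeFactors hp
    rw [show (20158709760 : ℕ) = 2 ^ 15 * (3 ^ 4 * (5 * (7 ^ 2 * 31))) by norm_num] at hd
    rcases hp'.dvd_mul.1 hd with h | hd
    · left; exact (Nat.prime_dvd_prime_iff_eq hp' Nat.prime_two).1 (hp'.dvd_of_dvd_pow h)
    rcases hp'.dvd_mul.1 hd with h | hd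
    · right; left; exact (Nat.prime_dvd_prime_iff_eq hp' Nat.prime_three).1 (hp'.dvd_of_dvd_pow h)
    rcases hp'.dvd_mul.1 hd with h | hd
    · right; right; left; exact (Nat.prime_dvd_prime_iff_eq hp' (by norm_num)).1 h
    rcases hp'.dvd_mul.1 hd with h | hd
    · right; right; right; left
      exact (Nat.prime_dvd_prime_iff_eq hp' (by norm_num)).1 (hp'.dvd_of_dvd_pow h)
    · right; right; right; right; left
      exact (Nat.prime_dvd_prime_iff_eq hp' (by norm_num)).1 hd
  have hM : (pSet 2 (GL (Fin 6) (ZMod 2))).ncard = 1073741824 := by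
    rw [ncard_gl 5 (a := 15) (m := 615195) (by rw [gl6_card]; norm_num) (by norm_num)]
    norm_num
  have h5 : ¬ 5 ∣ charDegree χ := by
    have h1 := not_dvd_of_exact h (r := 5) (a := 1) (m := 4031741952) (by norm_num)
      (by rw [gl6_card]; norm_num) (by norm_num) (y := L6.h) (z := L6.h ^ 3) (by rw [L6.h_ord]; norm_num)
      (by rw [orderOf_pow' _ (by norm_num), L6.h_ord]; norm_num)
      (not_isConj_of_orderOf (by rw [orderOf_pow' _ (by norm_num), L6.h_ord]; norm_num))
    rwa [pow_one] at h1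
  have h31 : ¬ 31 ∣ charDegree χ := by
    have h1 := not_dvd_of_exact h (r := 31) (a := 1) (m := 650280960) (by norm_num)
      (by rw [gl6_card]; norm_num) (by norm_num) (y := L6.z) (z := L6.z') (by rw [L6.z_ord])
      (by rw [L6.z'_ord]) L6.z_z'
    rwa [pow_one] at h1
  have h127 : ¬ 127 ∣ charDegree χ := by
    intro h1
    have h2 := h1.trans (charDegree_dvd_card ⟨χ, hχ⟩)
    rw [gl6_card] at h2
    omega
  have h7 : ¬ 7 ∣ charDegree χ :=
    no_seven hna gl6_card (m := 411402240) (by norm_num) (by norm_num) hM (by norm_num) hpf h h5 h31 h127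
      L6.g7_ord L6.g7_rat (L6.g7_card.trans (by norm_num)) L6.k7_ord (fun hc => L6.g7_k7 hc.symm)
      (by norm_num) L6.s_ord (L6.g9_eq ▸ L6.g9_rat) (L6.g9_eq ▸ L6.g9_card.trans (by norm_num))
  refine main_l hna gl6_card (a2 := 15) (m2 := 615195) (by norm_num) (by norm_num)
    (a3 := 4) (m3 := 248872960) (by norm_num) (by norm_num) hM (by norm_num) (by norm_num) (by norm_num)
    hpf h h5 h7 h31 h127 (five_ne h (m := 4031741952) (by rw [gl6_card]) (by norm_num) L6.h_ord)
    L6.s_ord (L6.g9_eq ▸ L6.g9_rat) (L6.g9_eq ▸ L6.g9_card.trans (by norm_num)) L6.u_rat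
    ⟨3, by rw [L6.u_ord]; norm_num⟩ (fun h1 => ?_) L6.u_card (by norm_num)
  have h2 := L6.u_ord
  rw [h1, orderOf_one] at h2
  omega

theorem none_gl7 {χ : GL (Fin 7) (ZMod 2) → ℂ} (hχ : IsIrrCharacter _ χ) : ¬ OneZero χ := by
  classical
  intro h0
  have : Fintype (GL (Fin 7) (ZMod 2)) := Fintype.ofFinite _
  have := simple_gl 7 (by norm_num)
  obtain ⟨x, h⟩ := (oneZero_iff hχ).1 h0
  have hna : ¬ IsMulCommutative (GL (Fin 7) (ZMod 2)) := by
    have h1 : IsConj L7.g9 (L7.g9 ^ 2) := isConj_gl_pow L7.e _ (p := [22, 27, 47, 58, 45, 50, 64])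
      (p' := [25, 20, 50, 40, 39, 19, 64]) (by decide) (by decide)
    refine not_comm_of h1 fun h2 => ?_
    have h3 : L7.g9 = 1 := by
      rw [pow_two] at h2
      exact mul_left_cancel (h2.symm.trans (mul_one _).symm)
    have h4 := L7.g9_ord
    rw [h3, orderOf_one] at h4
    omega
  have hpf : ∀ p ∈ (163849992929280 : ℕ).primeFactors,
      p = 2 ∨ p = 3 ∨ p = 5 ∨ p = 7 ∨ p = 31 ∨ p = 127 := by
    intro p hp
    have hp' := Nat.prime_of_mem_primeFactors hp
    have hd := Nat.dvd_of_mem_primeFactors hp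
    rw [show (163849992929280 : ℕ) = 2 ^ 21 * (3 ^ 4 * (5 * (7 ^ 2 * (31 * 127)))) by norm_num] at hd
    rcases hp'.dvd_mul.1 hd with h | hd
    · left; exact (Nat.prime_dvd_prime_iff_eq hp' Nat.prime_two).1 (hp'.dvd_of_dvd_pow h)
    rcases hp'.dvd_mul.1 hd with h | hd
    · right; left; exact (Nat.prime_dvd_prime_iff_eq hp' Nat.prime_three).1 (hp'.dvd_of_dvd_pow h)
    rcases hp'.dvd_mul.1 hd with h | hd
    · right; right; left; exact (Nat.prime_dvd_prime_iff_eq hp' (by norm_num)).1 h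
    rcases hp'.dvd_mul.1 hd with h | hd
    · right; right; right; left
      exact (Nat.prime_dvd_prime_iff_eq hp' (by norm_num)).1 (hp'.dvd_of_dvd_pow h)
    rcases hp'.dvd_mul.1 hd with h | hd
    · right; right; right; right; left
      exact (Nat.prime_dvd_prime_iff_eq hp' (by norm_num)).1 h
    · right; right; right; right; right
      exact (Nat.prime_dvd_prime_iff_eq hp' (by norm_num)).1 hd
  have hM : (pSet 2 (GL (Fin 7) (ZMod 2))).ncard = 4398046511104 := by
    rw [ncard_gl 6 (a := 21) (m := 78129765) (by rw [gl7_card]; norm_num) (by norm_num)]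
    norm_num
  have h5 : ¬ 5 ∣ charDegree χ := by
    have h1 := not_dvd_of_exact h (r := 5) (a := 1) (m := 32769998585856) (by norm_num)
      (by rw [gl7_card]; norm_num) (by norm_num) (y := L7.h) (z := L7.h ^ 3) (by rw [L7.h_ord]; norm_num)
      (by rw [orderOf_pow' _ (by norm_num), L7.h_ord]; norm_num)
      (not_isConj_of_orderOf (by rw [orderOf_pow' _ (by norm_num), L7.h_ord]; norm_num))
    rwa [pow_one] at h1
  have h31 : ¬ 31 ∣ charDegree χ := by
    have h1 := not_dvd_of_exact h (r := 31) (a := 1) (m := 5285483642880) (by norm_num)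
      (by rw [gl7_card]; norm_num) (by norm_num) (y := L7.w) (z := L7.w ^ 3)
      (by rw [L7.w_ord]; norm_num) (by rw [orderOf_pow' _ (by norm_num), L7.w_ord]; norm_num)
      (not_isConj_of_orderOf (by rw [orderOf_pow' _ (by norm_num), L7.w_ord]; norm_num))
    rwa [pow_one] at h1
  have h127 : ¬ 127 ∣ charDegree χ := by
    have h1 := not_dvd_of_exact h (r := 127) (a := 1) (m := 1290157424640) (by norm_num)
      (by rw [gl7_card]; norm_num) (by norm_num) (y := L7.z) (z := L7.z') (by rw [L7.z_ord])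
      (by rw [L7.z'_ord]) L7.z_z'
    rwa [pow_one] at h1
  have h7 : ¬ 7 ∣ charDegree χ :=
    no_seven hna gl7_card (m := 3343877406720) (by norm_num) (by norm_num) hM (by norm_num) hpf h h5 h31 h127
      L7.g7_ord L7.g7_rat L7.g7_card L7.k7_ord (fun hc => L7.g7_k7 hc.symm)
      (by norm_num) L7.s_ord (L7.g9_eq ▸ L7.g9_rat) (L7.g9_eq ▸ L7.g9_card.trans (by norm_num))
  refine main_l hna gl7_card (a2 := 21) (m2 := 78129765) (by norm_num) (by norm_num)
    (a3 := 4) (m3 := 2022839418880) (by norm_num) (by norm_num) hM (by norm_num) (by norm_num) (by norm_num)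
    hpf h h5 h7 h31 h127 (five_ne h (m := 32769998585856) (by rw [gl7_card]) (by norm_num) L7.h_ord)
    L7.s_ord (L7.g9_eq ▸ L7.g9_rat) (L7.g9_eq ▸ L7.g9_card.trans (by norm_num)) L7.u_rat
    ⟨3, by rw [L7.u_ord]; norm_num⟩ (fun h1 => ?_) L7.u_card (by norm_num)
  have h2 := L7.u_ord
  rw [h1, orderOf_one] at h2
  omega

/-- **The row `PSL_6(2)`.** -/
theorem row_l62 (F : Type) [Field F] [Fintype F] (hF : Fintype.card F = 2) :
    Row (Matrix.ProjectiveSpecialLinearGroup (Fin 6) F) := by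
  have e := Cfsg.Agent.LieClassical.FieldTransfer.pslCongr (ι := Fin 6)
    (FiniteField.ringEquivOfCardEq (K := F) (K' := ZMod 2) (by rw [hF, ZMod.card]))
  exact Row.congr (e.trans (pslGL 6 (by norm_num))) (Row.of_none fun χ hχ => none_gl6 hχ)

/-- **The row `PSL_7(2)`.** -/
theorem row_l72 (F : Type) [Field F] [Fintype F] (hF : Fintype.card F = 2) :
    Row (Matrix.ProjectiveSpecialLinearGroup (Fin 7) F) := by
  have e := Cfsg.Agent.LieClassical.FieldTransfer.pslCongr (ι := Fin 7)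
    (FiniteField.ringEquivOfCardEq (K := F) (K' := ZMod 2) (by rw [hF, ZMod.card]))
  exact Row.congr (e.trans (pslGL 7 (by norm_num))) (Row.of_none fun χ hχ => none_gl7 hχ)

end Cfsg.Agent.H732.OZ
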