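import Cfsg.Agent.H732.VZ.Exd

/-!
# No irreducible character of `PSL_6(2)`, `PSL_7(2)` vanishes on exactly one class: abstract part
-/

set_option autoImplicit false

namespace Cfsg.Agent.H732.OZ

open Cfsg Cfsg.Agent.Characters Cfsg.Agent.H686.CharKit Cfsg.Agent.H732.VZ
open Cfsg.Agent.H730.OZ (pSet OneZero)

universe u

variable {G : Type u} [Group G] [Fintype G]

/-- A prime dividing the group order exactly once does not divide the degree. -/
theorem not_dvd_of_exact {χ : IrrCharacter G} {x : G} (h : One χ x) {r a m : ℕ} (hr : r.Prime)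
    (hG : Nat.card G = r ^ a * m) (hm : ¬ r ∣ m) {y z : G} (hy : r ∣ orderOf y) (hz : r ∣ orderOf z)
    (hyz : ¬ IsConj y z) : ¬ r ^ a ∣ charDegree (χ : G → ℂ) := by
  intro hd
  have h1 := zero_of_defect hr hG hm χ hd hy
  have h2 := zero_of_defect hr hG hm χ hd hz
  exact hyz ((h.uniq y h1).symm.trans (h.uniq z h2))

/-- A divisor of `n` whose only prime divisor is `r`. -/
theorem exists_pow_of {d n r : ℕ} (hd : d ∣ n) (hn : n ≠ 0) (h : ∀ p ∈ n.primeFactors, p ∣ d → p = r) :
    ∃ k, d = r ^ k := by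
  have hd0 : d ≠ 0 := by
    rintro rfl
    exact hn (Nat.eq_zero_of_zero_dvd hd)
  exact ⟨_, Nat.eq_prime_pow_of_unique_prime_dvd hd0 fun {p} hp hpd =>
    h p (Nat.mem_primeFactors.2 ⟨hp, hpd.trans hd, hn⟩) hpd⟩

theorem not_isConj_of_orderOf {y z : G} (h : orderOf y ≠ orderOf z) : ¬ IsConj y z :=
  fun hc => h (orderOf_conj' hc)

/-- `r`-elements have orders which are powers of `r`. -/
theorem not_isREl {r q : ℕ} (hr : r.Prime) (hq : q.Prime) (hrq : r ≠ q) {g : G} (hg : q ∣ orderOf g) :
    ¬ IsREl r g := by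
  rintro ⟨k, hk⟩
  rw [hk] at hg
  exact hrq ((Nat.prime_dvd_prime_iff_eq hq hr).1 (hq.dvd_of_dvd_pow hg)).symm

/-- Common data for `PSL_6(2)` and `PSL_7(2)`. -/
theorem no_seven [IsSimpleGroup G] (hna : ¬ IsMulCommutative G) {n m M : ℕ}
    (hcard : Nat.card G = n) (hn : n = 7 ^ 2 * m) (hm : ¬ 7 ∣ m) (hM : (pSet 2 G).ncard = M)
    (hMn : n < 49 * M) (hpf : ∀ p ∈ n.primeFactors, p = 2 ∨ p = 3 ∨ p = 5 ∨ p = 7 ∨ p = 31 ∨ p = 127)
    {χ : IrrCharacter G} {x : G} (h : One χ x)
    (h5 : ¬ 5 ∣ charDegree (χ : G → ℂ)) (h31 : ¬ 31 ∣ charDegree (χ : G → ℂ))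
    (h127 : ¬ 127 ∣ charDegree (χ : G → ℂ))
    {g k : G} (hg : orderOf g = 7) (hgr : RatEl g)
    (hgc : Nat.card (Subgroup.centralizer ({g} : Set G)) ≤ 127) (hk : orderOf k = 7)
    (hgk : ¬ IsConj g k) (h4n : 2 ^ 2 ∣ n)
    {s : G} (hs : orderOf s = 63) (hsr : RatEl (s ^ 7))
    (hsc : Nat.card (Subgroup.centralizer ({s ^ 7} : Set G)) ≤ 64) :
    ¬ 7 ∣ charDegree (χ : G → ℂ) := by
  intro hd
  have h7 : Nat.Prime 7 := by norm_num
  have hc2 := h.two_le
  have hn2 := h.ne_prime Nat.prime_two (hcard ▸ h4n)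
  -- `x` is conjugate to `g`
  have hxg : IsConj x g := by
    by_contra hx
    have h1 := h.rat_le h7 hd hgr (a := 1) (by rw [pow_one, ← hg, pow_orderOf_eq_one]) hx
    omega
  have hc : Nat.card (Subgroup.centralizer ({x} : Set G)) = Nat.card (Subgroup.centralizer ({g} : Set G)) :=
    card_centralizer_eq hxg
  have hox : orderOf x = 7 := (orderOf_conj' hxg).trans hg
  have h49 : 7 ^ 2 ∣ Nat.card (Subgroup.centralizer ({x} : Set G)) :=
    sq_dvd_centralizer h7 (by rw [hcard, hn]; exact Dvd.intro _ rfl) h.ne_one ⟨1, by rw [hox, pow_one]⟩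
  have h49' : 49 ≤ Nat.card (Subgroup.centralizer ({x} : Set G)) := Nat.le_of_dvd Nat.card_pos h49
  have hx2 : ¬ IsREl 2 x := not_isREl Nat.prime_two h7 (by norm_num) (by rw [hox])
  -- the degree is odd
  have hodd : ¬ 2 ∣ charDegree (χ : G → ℂ) := by
    intro h2
    have h3 := (even_excess h hM h2 (ex_empty χ) fun g hg => absurd hg (Finset.notMem_empty g)).1 hx2
    rw [hcard, add_zero] at h3
    have h4 : M * 49 ≤ M * Nat.card (Subgroup.centralizer ({x} : Set G)) := Nat.mul_le_mul_left _ h49'
    omega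
  -- prime to 3
  have h3 : ¬ 3 ∣ charDegree (χ : G → ℂ) := by
    intro h3
    have hos : orderOf (s ^ 7) = 9 := by
      rw [orderOf_pow' s (by norm_num), hs]
      norm_num
    have h1 := h.rat_le Nat.prime_three h3 hsr (a := 2)
      (by norm_num; rw [← hos, pow_orderOf_eq_one]) (not_isConj_of_orderOf (by rw [hox, hos]; norm_num))
    omega
  obtain ⟨j, hj⟩ := exists_pow_of (r := 7) (charDegree_dvd_card χ) Nat.card_pos.ne' (fun p hp hpd => by
    rw [hcard] at hp
    rcases hpf p hp with rfl | rfl | rfl | rfl | rfl | rfl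
    · exact absurd hpd hodd
    · exact absurd hpd h3
    · exact absurd hpd h5
    · rfl
    · exact absurd hpd h31
    · exact absurd hpd h127)
  -- Burnside: all elements of order 7 are zeros
  have hind : ∀ y : G, orderOf y = 7 → ¬ 7 ∣ (Subgroup.centralizer ({y} : Set G)).index := by
    intro y hy hdv
    have hy1 : y ≠ 1 := by
      rintro rfl
      rw [orderOf_one] at hy
      omega
    have h1 := sq_dvd_centralizer h7 (by rw [hcard, hn]; exact Dvd.intro _ rfl) hy1
      ⟨1, by rw [hy, pow_one]⟩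
    have h2 := Nat.mul_dvd_mul h1 hdv
    rw [Subgroup.card_mul_index, hcard, hn, ← pow_succ] at h2
    have h4 : 7 ^ 2 * 7 ∣ 7 ^ 2 * m := by rwa [← pow_succ]
    exact hm (Nat.dvd_of_mul_dvd_mul_left (by norm_num) h4)
  have hk1 : k ≠ 1 := by
    rintro rfl
    rw [orderOf_one] at hk
    omega
  exact hgk (hxg.symm.trans (h.of_pow hna h7 hj hk1 (hind k hk)))

theorem main_l [IsSimpleGroup G] (hna : ¬ IsMulCommutative G) {n M : ℕ}
    (hcard : Nat.card G = n) {a2 m2 a3 m3 : ℕ} (hn2 : n = 2 ^ a2 * m2) (ha2 : 7 ≤ a2)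
    (hn3 : n = 3 ^ a3 * m3) (ha3 : 4 ≤ a3) (hM : (pSet 2 G).ncard = M)
    (hMn : 2 * n < 128 * M) (hMn' : n < 63 * M) (hMn8 : 8 * M < n)
    (hpf : ∀ p ∈ n.primeFactors, p = 2 ∨ p = 3 ∨ p = 5 ∨ p = 7 ∨ p = 31 ∨ p = 127)
    {χ : IrrCharacter G} {x : G} (h : One χ x)
    (h5 : ¬ 5 ∣ charDegree (χ : G → ℂ)) (h7 : ¬ 7 ∣ charDegree (χ : G → ℂ))
    (h31 : ¬ 31 ∣ charDegree (χ : G → ℂ))
    (h127 : ¬ 127 ∣ charDegree (χ : G → ℂ)) (h5c : Nat.card (Subgroup.centralizer ({x} : Set G)) ≠ 5)
    {s : G} (hs : orderOf s = 63) (hsr : RatEl (s ^ 7))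
    (hsc : Nat.card (Subgroup.centralizer ({s ^ 7} : Set G)) ≤ 64)
    {u : G} (hu : RatEl u) (hu2 : IsREl 2 u) (hu1 : u ≠ 1) {cu : ℕ}
    (huc : Nat.card (Subgroup.centralizer ({u} : Set G)) ≤ cu)
    (hbound : cu * n < 6 * (cu * M + 2 * n + cu * (n / 8))) : False := by
  have h3 : Nat.Prime 3 := Nat.prime_three
  have h2p : Nat.Prime 2 := Nat.prime_two
  have hn0 : n ≠ 0 := hcard ▸ Nat.card_pos.ne'
  have hc2 := h.two_le
  have hne2 := h.ne_prime h2p (by rw [hcard, hn2]; exact (pow_dvd_pow 2 (by omega)).mul_right m2)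
  have hne3 := h.ne_prime h3 (by rw [hcard, hn3]; exact (pow_dvd_pow 3 (by omega)).mul_right m3)
  have hos : orderOf (s ^ 7) = 9 := by
    rw [orderOf_pow' s (by norm_num), hs]
    norm_num
  -- centralizer of a 2-element
  have htwo : IsREl 2 x → 8 < Nat.card (Subgroup.centralizer ({x} : Set G)) := by
    intro hx
    have h1 := card_le_of_two h hM hx
    by_contra hcon
    push Not at hcon
    have h4 : M * Nat.card (Subgroup.centralizer ({x} : Set G)) ≤ M * 8 := Nat.mul_le_mul_left _ hcon
    rw [hcard] at h1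
    omega
  have hfour : Nat.card (Subgroup.centralizer ({x} : Set G)) ≠ 4 := by
    intro h4
    have h1 : orderOf x ∣ 2 ^ 2 := by
      have := orderOf_dvd_centralizer (Commute.refl x)
      rwa [h4] at this
    obtain ⟨k, -, hk⟩ := (Nat.dvd_prime_pow h2p).1 h1
    have := htwo ⟨k, hk⟩
    omega
  by_cases hd3 : 3 ∣ charDegree (χ : G → ℂ)
  · by_cases hxs : IsConj x (s ^ 7)
    · -- `x` of order 9
      have hox : orderOf x = 9 := (orderOf_conj' hxs).trans hos
      have hc63 : 63 ∣ Nat.card (Subgroup.centralizer ({x} : Set G)) := by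
        rw [card_centralizer_eq hxs, ← hs]
        exact orderOf_dvd_centralizer ((Commute.refl s).pow_right 7)
      have hc63' := Nat.le_of_dvd Nat.card_pos hc63
      have hx2 : ¬ IsREl 2 x := not_isREl h2p h3 (by norm_num) (by rw [hox]; norm_num)
      by_cases hd2 : 2 ∣ charDegree (χ : G → ℂ)
      · have h4 := (even_excess h hM hd2 (ex_empty χ) fun g hg => absurd hg (Finset.notMem_empty g)).1 hx2
        rw [hcard, add_zero] at h4
        have h6 : M * 63 ≤ M * Nat.card (Subgroup.centralizer ({x} : Set G)) := Nat.mul_le_mul_left _ hc63'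
        omega
      · obtain ⟨j, hj⟩ := exists_pow_of (r := 3) (charDegree_dvd_card χ) Nat.card_pos.ne'
          (fun p hp hpd => by
            rw [hcard] at hp
            rcases hpf p hp with rfl | rfl | rfl | rfl | rfl | rfl
            · exact absurd hpd hd2
            · rfl
            · exact absurd hpd h5
            · exact absurd hpd h7
            · exact absurd hpd h31
            · exact absurd hpd h127)
        have h4 := (h.central hna h3 hj (hcard.trans hn3) (by omega)).1
        omega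
    · have hle := h.rat_le h3 hd3 hsr (a := 2) (by norm_num; rw [← hos, pow_orderOf_eq_one]) hxs
      have hc8 : Nat.card (Subgroup.centralizer ({x} : Set G)) ≤ 8 := by omega
      by_cases hd2 : 2 ∣ charDegree (χ : G → ℂ)
      · have hx2 : ¬ IsREl 2 x := fun hx => by
          have := htwo hx
          omega
        have hxu : ¬ IsConj x u := fun hc => hx2 (hu2.conj hc.symm)
        have hY : Ex χ (cl (s ^ 7)) ((3 ^ 2 - 1) * (cl (s ^ 7)).card) :=
          ex_rat hsr h3 χ hd3 (a := 2) (by norm_num; rw [← hos, pow_orderOf_eq_one])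
            fun h0 => hxs (h.uniq _ h0)
        have hYn : ∀ g ∈ cl (s ^ 7), ¬ IsREl 2 g := by
          intro g hg
          refine not_isREl h2p h3 (by norm_num) ?_
          rw [← orderOf_conj' (mem_cl.1 hg), hos]
          norm_num
        have h4 := (even_excess' h hM hd2 hu hu2 hxu hY hYn).1 hx2
        rw [hcard] at h4
        -- class sizes
        have e1 : n ≤ 64 * (cl (s ^ 7)).card := by
          have := card_cl (s ^ 7)
          rw [hcard] at this
          rw [← this, mul_comm]
          exact Nat.mul_le_mul_right _ hsc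
        have e2 : n ≤ cu * (cl u).card := by
          have := card_cl u
          rw [hcard] at this
          rw [← this, mul_comm]
          exact Nat.mul_le_mul_right _ huc
        have e3 : n / 8 ≤ (3 ^ 2 - 1) * (cl (s ^ 7)).card := by omega
        -- `c ≤ 5`
        have hc6 : ¬ 6 ≤ Nat.card (Subgroup.centralizer ({x} : Set G)) := by
          intro h6
          have h8 : (M + 2 * (cl u).card + (3 ^ 2 - 1) * (cl (s ^ 7)).card) * 6 ≤ n :=
            (Nat.mul_le_mul_left _ h6).trans h4
          have h9 : cu * ((M + 2 * (cl u).card + (3 ^ 2 - 1) * (cl (s ^ 7)).card) * 6) ≤ cu * n :=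
            Nat.mul_le_mul_left _ h8
          have h10 : 6 * (cu * M + 2 * n + cu * (n / 8))
              ≤ cu * ((M + 2 * (cl u).card + (3 ^ 2 - 1) * (cl (s ^ 7)).card) * 6) := by
            calc 6 * (cu * M + 2 * n + cu * (n / 8))
                ≤ 6 * (cu * M + 2 * (cu * (cl u).card) + cu * ((3 ^ 2 - 1) * (cl (s ^ 7)).card)) := by
                  have := Nat.mul_le_mul_left cu e3
                  omega
              _ = _ := by ring
          omega
        have : Nat.card (Subgroup.centralizer ({x} : Set G)) = 2 ∨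
            Nat.card (Subgroup.centralizer ({x} : Set G)) = 3 ∨
            Nat.card (Subgroup.centralizer ({x} : Set G)) = 4 ∨
            Nat.card (Subgroup.centralizer ({x} : Set G)) = 5 := by omega
        rcases this with h8 | h8 | h8 | h8
        · exact hne2 h8
        · exact hne3 h8
        · exact hfour h8
        · exact h5c h8
      · obtain ⟨j, hj⟩ := exists_pow_of (r := 3) (charDegree_dvd_card χ) Nat.card_pos.ne'
          (fun p hp hpd => by
            rw [hcard] at hp
            rcases hpf p hp with rfl | rfl | rfl | rfl | rfl | rfl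
            · exact absurd hpd hd2
            · rfl
            · exact absurd hpd h5
            · exact absurd hpd h7
            · exact absurd hpd h31
            · exact absurd hpd h127)
        have h4 := (h.central hna h3 hj (hcard.trans hn3) (by omega)).2
        have h6 := Nat.le_of_dvd Nat.card_pos ((pow_dvd_pow 3 ha3).trans h4)
        omega
  · -- a power of 2
    obtain ⟨j, hj⟩ := exists_pow_of (r := 2) (charDegree_dvd_card χ) Nat.card_pos.ne'
      (fun p hp hpd => by
        rw [hcard] at hp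
        rcases hpf p hp with rfl | rfl | rfl | rfl | rfl | rfl
        · rfl
        · exact absurd hpd hd3
        · exact absurd hpd h5
        · exact absurd hpd h7
        · exact absurd hpd h31
        · exact absurd hpd h127)
    obtain ⟨h4, h6⟩ := h.central hna h2p hj (hcard.trans hn2) (by omega)
    have h8 := Nat.le_of_dvd Nat.card_pos ((pow_dvd_pow 2 ha2).trans h6)
    rcases Nat.eq_zero_or_pos j with rfl | hj0
    · -- degree one: `s ^ 7` is a zero
      have h9 : IsConj x (s ^ 7) := h.uniq _ (eq_zero_of_coprime hna χ h.zero (fun h0 => by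
        rw [h0, orderOf_one] at hos
        omega) (by rw [hj, pow_zero]; exact Nat.coprime_one_right _))
      have h10 := orderOf_conj' h9
      omega
    · have hd2 : 2 ∣ charDegree (χ : G → ℂ) := hj ▸ dvd_pow_self 2 hj0.ne'
      have h9 := (even_excess h hM hd2 (ex_empty χ) fun g hg => absurd hg (Finset.notMem_empty g)).2
      rw [hcard, add_zero] at h9
      have h10 : M * 128 ≤ M * Nat.card (Subgroup.centralizer ({x} : Set G)) :=
        Nat.mul_le_mul_left _ (by omega)
      omega

end Cfsg.Agent.H732.OZ
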